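import Mathlib

/-!
A Sylow 2-subgroup of `GL₂(q)`, `q` odd, split over the units of a quadratic algebra.
-/

set_option autoImplicit false

namespace Cfsg.Agent.G2Oct

open Matrix

variable {F : Type*} [Field F]

local notation "M₂" => Matrix (Fin 2) (Fin 2) F

/-- An invertible matrix as a unit. -/
def toGL (A : M₂) (h : A.det ≠ 0) : GL (Fin 2) F :=
  ⟨A, A.det⁻¹ • adjugate A, by rw [mul_smul_comm, mul_adjugate, smul_smul, inv_mul_cancel₀ h, one_smul],
    by rw [smul_mul_assoc, adjugate_mul, smul_smul, inv_mul_cancel₀ h, one_smul]⟩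

@[simp] theorem coe_toGL (A : M₂) (h : A.det ≠ 0) : ((toGL A h : GL (Fin 2) F) : M₂) = A := rfl

/-- `diag (1, -1)`. -/
def refl₂ : GL (Fin 2) F :=
  ⟨!![1, 0; 0, -1], !![1, 0; 0, -1],
    by ext i j; fin_cases i <;> fin_cases j <;> simp [Matrix.mul_apply],
    by ext i j; fin_cases i <;> fin_cases j <;> simp [Matrix.mul_apply]⟩

theorem refl₂_sq : (refl₂ : GL (Fin 2) F) * refl₂ = 1 :=
  Units.ext (by ext i j; fin_cases i <;> fin_cases j <;> simp [refl₂, Matrix.mul_apply])

/-- The units of `F[J]`, `J² = d`. -/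
def torus (d : F) : Subgroup (GL (Fin 2) F) where
  carrier := {A | (A : M₂) 0 0 = (A : M₂) 1 1 ∧ (A : M₂) 0 1 = d * (A : M₂) 1 0}
  one_mem' := by simp
  mul_mem' := by
    rintro A B ⟨h1, h2⟩ ⟨h3, h4⟩
    simp only [Set.mem_setOf_eq, GeneralLinearGroup.coe_mul, Matrix.mul_apply, Fin.sum_univ_two]
    rw [h1, h2, h3, h4]
    constructor <;> ring
  inv_mem' := by
    rintro A ⟨h1, h2⟩
    simp only [Set.mem_setOf_eq, Matrix.coe_units_inv, Matrix.inv_def, adjugate_fin_two,
      Matrix.smul_apply, smul_eq_mul]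
    simp [h1, h2, mul_comm, mul_left_comm]

theorem mem_torus {d : F} {A : GL (Fin 2) F} :
    A ∈ torus d ↔ (A : M₂) 0 0 = (A : M₂) 1 1 ∧ (A : M₂) 0 1 = d * (A : M₂) 1 0 := Iff.rfl

theorem torus_comm {d : F} {A B : GL (Fin 2) F} (hA : A ∈ torus d) (hB : B ∈ torus d) : Commute A B := by
  obtain ⟨h1, h2⟩ := hA
  obtain ⟨h3, h4⟩ := hB
  refine Units.ext ?_
  ext i j
  fin_cases i <;> fin_cases j <;> simp [Matrix.mul_apply, h1, h2, h3, h4] <;> ring

theorem torus_refl {d : F} {A : GL (Fin 2) F} (hA : A ∈ torus d) : refl₂ * A * refl₂ ∈ torus d := by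
  obtain ⟨h1, h2⟩ := hA
  simp [mem_torus, refl₂, Matrix.mul_apply, Matrix.vecMul, dotProduct, h1, h2]

theorem trace_torus_refl {d : F} {A : GL (Fin 2) F} (hA : A ∈ torus d) :
    Matrix.trace ((A * refl₂ : GL (Fin 2) F) : M₂) = 0 := by
  obtain ⟨h1, -⟩ := hA
  simp [Matrix.trace_fin_two, refl₂, Matrix.mul_apply, h1]

theorem refl₂_not_mem (h2 : (2 : F) ≠ 0) (d : F) : (refl₂ : GL (Fin 2) F) ∉ torus d := by
  rintro ⟨h1, -⟩
  have h1' : (1 : F) = -1 := by simpa [refl₂] using h1
  exact h2 (by rw [← one_add_one_eq_two]; nth_rewrite 2 [h1']; simp)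

/-- The elements of 2-power order. -/
def torusTwo (d : F) : Subgroup (GL (Fin 2) F) where
  carrier := {A | A ∈ torus d ∧ ∃ k : ℕ, A ^ 2 ^ k = 1}
  one_mem' := ⟨one_mem _, 0, one_pow _⟩
  mul_mem' := by
    rintro A B ⟨hA, k, hk⟩ ⟨hB, l, hl⟩
    refine ⟨mul_mem hA hB, k + l, ?_⟩
    rw [(torus_comm hA hB).mul_pow, pow_add, pow_mul, hk, one_pow, one_mul, mul_comm, pow_mul, hl, one_pow]
  inv_mem' := by
    rintro A ⟨hA, k, hk⟩
    exact ⟨inv_mem hA, k, by rw [inv_pow, hk, inv_one]⟩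

theorem conj_torusTwo {d : F} {A : GL (Fin 2) F} (hA : A ∈ torusTwo d) :
    refl₂ * A * refl₂ ∈ torusTwo d := by
  obtain ⟨hA, k, hk⟩ := hA
  refine ⟨torus_refl hA, k, ?_⟩
  have h : (refl₂ : GL (Fin 2) F)⁻¹ = refl₂ := inv_eq_of_mul_eq_one_left refl₂_sq
  conv_lhs => enter [1, 2]; rw [← h]
  rw [conj_pow, hk, mul_one, mul_inv_cancel]

/-- The torus elements of 2-power order, extended by the reflection. -/
def sylowTwo (d : F) : Subgroup (GL (Fin 2) F) where
  carrier := {A | A ∈ torusTwo d ∨ A * refl₂ ∈ torusTwo d}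
  one_mem' := Or.inl (one_mem _)
  mul_mem' := by
    rintro A B (hA | hA) (hB | hB)
    · exact Or.inl (mul_mem hA hB)
    · exact Or.inr (by rw [mul_assoc]; exact mul_mem hA hB)
    · refine Or.inr ?_
      have h : A * B * refl₂ = (A * refl₂) * (refl₂ * B * refl₂) := by
        simp only [mul_assoc]; rw [← mul_assoc refl₂ refl₂, refl₂_sq, one_mul]
      rw [h]; exact mul_mem hA (conj_torusTwo hB)
    · refine Or.inl ?_
      have h : A * B = (A * refl₂) * (refl₂ * (B * refl₂) * refl₂) := by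
        simp only [mul_assoc, refl₂_sq, mul_one]
        rw [← mul_assoc refl₂ refl₂, refl₂_sq, one_mul]
      rw [h]; exact mul_mem hA (conj_torusTwo hB)
  inv_mem' := by
    rintro A (hA | hA)
    · exact Or.inl (inv_mem hA)
    · refine Or.inr ?_
      have hr : (refl₂ : GL (Fin 2) F)⁻¹ = refl₂ := inv_eq_of_mul_eq_one_left refl₂_sq
      have h := conj_torusTwo (inv_mem hA)
      rwa [_root_.mul_inv_rev, hr, ← mul_assoc, refl₂_sq, one_mul] at h

theorem refl₂_mem (d : F) : (refl₂ : GL (Fin 2) F) ∈ sylowTwo d :=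
  Or.inr (by rw [refl₂_sq]; exact one_mem _)

theorem card_sylowTwo (h2 : (2 : F) ≠ 0) (d : F) :
    Nat.card (sylowTwo d) = 2 * Nat.card (torusTwo d) := by
  have hle : torusTwo d ≤ sylowTwo d := fun A hA => Or.inl hA
  have hi : ((torusTwo d).subgroupOf (sylowTwo d)).index = 2 := by
    rw [Subgroup.index_eq_two_iff]
    refine ⟨⟨refl₂, refl₂_mem d⟩, fun b => ?_⟩
    simp only [Subgroup.mem_subgroupOf, Subgroup.coe_mul]
    rcases b.2 with h | h
    · refine Or.inr ⟨h, fun h' => refl₂_not_mem h2 d ?_⟩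
      simpa using (mul_mem (inv_mem h) h').1
    · refine Or.inl ⟨h, fun h' => refl₂_not_mem h2 d ?_⟩
      simpa using (mul_mem (inv_mem h') h).1
  rw [← ((torusTwo d).subgroupOf (sylowTwo d)).card_mul_index, hi,
    Nat.card_congr (Subgroup.subgroupOfEquivOfLe hle).toEquiv, mul_comm]

theorem card_torusTwo [Finite F] (d : F) :
    Nat.card (torusTwo d) = 2 ^ (Nat.card (torus d)).factorization 2 := by
  haveI : Fact (Nat.Prime 2) := ⟨Nat.prime_two⟩
  obtain ⟨P⟩ : Nonempty (Sylow 2 (torus d)) := inferInstance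
  have hle : torusTwo d ≤ torus d := fun A hA => hA.1
  have hp : IsPGroup 2 ((torusTwo d).subgroupOf (torus d)) := by
    rintro ⟨⟨A, _⟩, hA : A ∈ torusTwo d⟩
    obtain ⟨k, hk⟩ := hA.2
    exact ⟨k, Subtype.ext (Subtype.ext (by simpa using hk))⟩
  have hP : (P : Subgroup (torus d)) ≤ (torusTwo d).subgroupOf (torus d) := by
    intro A hA
    obtain ⟨k, hk⟩ := P.isPGroup' ⟨A, hA⟩
    exact ⟨A.2, k, by
      have := congrArg (fun x : ↥(P : Subgroup (torus d)) => ((x : ↥(torus d)) : GL (Fin 2) F)) hk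
      simpa using this⟩
  rw [← Nat.card_congr (Subgroup.subgroupOfEquivOfLe hle).toEquiv, P.is_maximal' hp hP]
  exact P.card_eq_multiplicity

theorem torus_eq_coords {d : F} :
    Nat.card (torus d) = Nat.card {p : F × F // p.1 * p.1 - d * p.2 * p.2 ≠ 0} := by
  refine Nat.card_congr
    { toFun := fun A => ⟨(((A : GL (Fin 2) F) : M₂) 0 0, ((A : GL (Fin 2) F) : M₂) 1 0), ?_⟩
      invFun := fun p => ⟨toGL !![p.1.1, d * p.1.2; p.1.2, p.1.1] ?_, ?_⟩
      left_inv := ?_
      right_inv := ?_ }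
  · have h := (Matrix.GeneralLinearGroup.det (A : GL (Fin 2) F)).ne_zero
    obtain ⟨h1, h2⟩ := A.2
    simpa [Matrix.det_fin_two, ← h1, h2, mul_assoc] using h
  · simpa [Matrix.det_fin_two, mul_assoc] using p.2
  · simp [mem_torus]
  · intro A
    obtain ⟨h1, h2⟩ := A.2
    refine Subtype.ext (Units.ext ?_)
    ext i j
    fin_cases i <;> fin_cases j <;> simp [h1, h2]
  · intro p
    refine Subtype.ext ?_
    simp

theorem card_GL_two [Fintype F] :
    Nat.card (GL (Fin 2) F) = (Fintype.card F ^ 2 - 1) * (Fintype.card F ^ 2 - Fintype.card F) := by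
  rw [Matrix.card_GL_field]
  simp

/-- The data used in the proof of the theorem. -/
structure GoodSylow (F : Type*) [Field F] where
  D : Sylow 2 (GL (Fin 2) F)
  d : F
  z : GL (Fin 2) F
  r₁ : GL (Fin 2) F
  out_trace : ∀ A ∈ D, A ∉ torus d → Matrix.trace (A : Matrix (Fin 2) (Fin 2) F) = 0
  out_mul : ∀ A ∈ D, ∀ B ∈ D, A ∉ torus d → B ∉ torus d → A * B ∈ torus d
  r_mem : refl₂ ∈ D
  r_not_mem : refl₂ ∉ torus d
  z_mem : z ∈ D
  z_torus : z ∈ torus d
  z_trace : Matrix.trace (z : Matrix (Fin 2) (Fin 2) F) = 0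
  z_det : (z : Matrix (Fin 2) (Fin 2) F).det = 1
  r₁_mem : r₁ ∈ D
  r₁_not_mem : r₁ ∉ torus d
  r₁_det : (r₁ : Matrix (Fin 2) (Fin 2) F).det = 1
  comm_scalar : ∀ A : GL (Fin 2) F, A * z = z * A → A * r₁ = r₁ * A → ∃ a : F, (A : Matrix (Fin 2) (Fin 2) F) = a • 1

/-- Building the data from a torus. -/
theorem goodSylow_of [Fintype F] (h2 : (2 : F) ≠ 0) {d : F} (m : ℕ) (hm : Odd m)
    (hcard : Nat.card (GL (Fin 2) F) = 2 * Nat.card (torus d) * m)
    (z X : GL (Fin 2) F) (hz : z ∈ torusTwo d) (hztr : (z : M₂) 0 0 = 0) (hzdet : (z : M₂).det = 1)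
    (hX : X ∈ torusTwo d) (hXdet : (X : M₂).det = -1) : Nonempty (GoodSylow F) := by
  haveI : Fact (Nat.Prime 2) := ⟨Nat.prime_two⟩
  have hsyl : Nat.card (sylowTwo d) = 2 ^ (Nat.card (GL (Fin 2) F)).factorization 2 := by
    have ht : Nat.card (torus d) ≠ 0 := Nat.card_pos.ne'
    have hm0 : m ≠ 0 := by rintro rfl; simp at hm
    rw [card_sylowTwo h2, card_torusTwo, hcard, Nat.factorization_mul (by omega) hm0,
      Nat.factorization_mul (by norm_num) ht]
    simp [Nat.Prime.factorization_self Nat.prime_two,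
      Nat.factorization_eq_zero_of_not_dvd (fun h => (Nat.not_even_iff_odd.mpr hm) (even_iff_two_dvd.mpr h)),
      pow_add]
  have hmem : ∀ A ∈ sylowTwo d, A ∉ torus d → A * refl₂ ∈ torus d := fun A hA hn => by
    rcases hA with h | h
    · exact absurd h.1 hn
    · exact h.1
  have hrr : ∀ A : GL (Fin 2) F, A = A * refl₂ * refl₂ := fun A => by rw [mul_assoc, refl₂_sq, mul_one]
  refine ⟨⟨Sylow.ofCard (sylowTwo d) hsyl, d, z, refl₂ * X, ?_, ?_, refl₂_mem d, refl₂_not_mem h2 d,
    Or.inl hz, hz.1, ?_, hzdet, mul_mem (refl₂_mem d) (Or.inl hX), ?_, ?_, ?_⟩⟩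
  · intro A hA hn
    rw [hrr A]
    exact trace_torus_refl (hmem A hA hn)
  · intro A hA B hB hnA hnB
    have h := mul_mem (hmem A hA hnA) (torus_refl (hmem B hB hnB))
    rwa [mul_assoc refl₂ _ refl₂, ← hrr B, ← mul_assoc (A * refl₂), ← hrr A] at h
  · have := hz.1.1
    rw [Matrix.trace_fin_two, ← this, hztr, add_zero]
  · intro h
    exact refl₂_not_mem h2 d (by simpa using mul_mem h (inv_mem hX.1))
  · rw [GeneralLinearGroup.coe_mul, Matrix.det_mul, hXdet]
    simp [refl₂, Matrix.det_fin_two]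
  · intro A hAz hAr
    obtain ⟨z1, z2⟩ := hz.1
    have hz10 : (z : M₂) 1 0 ≠ 0 := by
      intro h
      rw [Matrix.det_fin_two, hztr, z2, h] at hzdet
      simp at hzdet
    have hd : d ≠ 0 := by
      intro h
      rw [Matrix.det_fin_two, hztr, z2, h] at hzdet
      simp at hzdet
    have he := congrArg Units.val hAz
    have e10 := congrFun (congrFun he 1) 0
    have e11 := congrFun (congrFun he 1) 1
    simp only [GeneralLinearGroup.coe_mul, Matrix.mul_apply, Fin.sum_univ_two, ← z1, hztr, z2,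
      mul_zero, zero_mul, add_zero, zero_add] at e10 e11
    have hA1 : (A : M₂) 0 0 = (A : M₂) 1 1 := mul_left_cancel₀ hz10 (by linear_combination -e10)
    have hA2 : (A : M₂) 0 1 = d * (A : M₂) 1 0 := mul_left_cancel₀ hz10 (by linear_combination -e11)
    have hA : A ∈ torus d := ⟨hA1, hA2⟩
    have hc : A * refl₂ = refl₂ * A := by
      have h := hAr
      rw [mul_assoc, (torus_comm hX.1 hA).eq, ← mul_assoc, ← mul_assoc] at h
      exact mul_right_cancel h
    have h10 := congrFun (congrFun (congrArg (fun U : GL (Fin 2) F => (U : M₂)) hc) 1) 0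
    simp [refl₂, Matrix.mul_apply] at h10
    have hb : (A : M₂) 1 0 = 0 := by
      have : (2 : F) * (A : M₂) 1 0 = 0 := by linear_combination h10
      exact (mul_eq_zero.mp this).resolve_left h2
    refine ⟨(A : M₂) 0 0, ?_⟩
    ext i j
    fin_cases i <;> fin_cases j <;> simp [hA1, hA2, hb]

theorem exists_goodSylow [Fintype F] (hF : Odd (Fintype.card F)) : Nonempty (GoodSylow F) := by
  classical
  have hchar : ringChar F ≠ 2 := fun h => by
    have := FiniteField.even_card_of_char_two h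
    obtain ⟨k, hk⟩ := hF
    omega
  have h2 : (2 : F) ≠ 0 := Ring.two_ne_zero hchar
  set q := Fintype.card F with hq
  have hq1 : 1 < q := Fintype.one_lt_card
  have hunits : Nat.card {x : F // x ≠ 0} = q - 1 := by
    rw [Nat.card_eq_fintype_card, Fintype.card_subtype_compl, Fintype.card_subtype_eq]
  by_cases hq4 : q % 4 = 3
  · -- `-1` is not a square
    have hns : ¬ IsSquare (-1 : F) := fun h => FiniteField.isSquare_neg_one_iff.mp h hq4
    have hcT : Nat.card (torus (-1 : F)) = q ^ 2 - 1 := by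
      rw [torus_eq_coords]
      have e : {p : F × F // p.1 * p.1 - -1 * p.2 * p.2 ≠ 0} ≃ {p : F × F // p ≠ 0} :=
        Equiv.subtypeEquivRight fun p => by
          refine not_congr ⟨fun h => ?_, fun h => by simp [h]⟩
          by_cases h0 : p.2 = 0
          · refine Prod.ext ?_ h0
            simpa [h0] using h
          · exact absurd ⟨p.1 / p.2, by field_simp; linear_combination -h⟩ hns
      rw [Nat.card_congr e, Nat.card_eq_fintype_card, Fintype.card_subtype_compl, Fintype.card_subtype_eq,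
        Fintype.card_prod, sq]
    obtain ⟨k, hk⟩ : ∃ k, q = 4 * k + 3 := ⟨q / 4, by omega⟩
    obtain ⟨a, b, hab⟩ := FiniteField.exists_root_sum_quadratic (R := F)
      (f := Polynomial.X ^ 2) (g := Polynomial.X ^ 2 + Polynomial.C 1)
      (by simp) (by compute_degree!) (Nat.odd_iff.mp hF)
    simp at hab
    let X0 : GL (Fin 2) F := toGL !![a, -1 * b; b, a]
      (by simp [Matrix.det_fin_two]; intro h; exact one_ne_zero (α := F) (by linear_combination hab - h))
    have hX0 : X0 ∈ torus (-1 : F) := by simp [X0, mem_torus]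
    have hdetX0 : (X0 : M₂).det = -1 := by
      simp [X0, Matrix.det_fin_two]
      linear_combination hab
    obtain ⟨e, m', hm', hord⟩ := Nat.exists_eq_two_pow_mul_odd (orderOf_pos X0).ne'
    let z : GL (Fin 2) F := toGL !![0, -1; 1, 0]
      (by simp [Matrix.det_fin_two])
    refine goodSylow_of h2 ((4 * k + 3) * (2 * k + 1)) ?_ ?_ z (X0 ^ m') ?_ ?_ ?_ ?_ ?_ (d := -1)
    · rw [Nat.odd_mul]; exact ⟨⟨2 * k + 1, by ring⟩, ⟨k, rfl⟩⟩
    · rw [card_GL_two, hcT, ← hq, hk]
      have hb : (4 * k + 3) ^ 2 - (4 * k + 3) = 2 * ((4 * k + 3) * (2 * k + 1)) := by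
        apply Nat.sub_eq_of_eq_add; ring
      rw [hb]; ring
    · refine ⟨by simp [z, mem_torus], 2, ?_⟩
      refine Units.ext ?_
      ext i j
      fin_cases i <;> fin_cases j <;>
        simp [z, pow_succ, Matrix.mul_apply]
    · simp [z]
    · simp [z, Matrix.det_fin_two]
    · exact ⟨pow_mem hX0 _, e, by rw [← pow_mul, mul_comm, ← hord, pow_orderOf_eq_one]⟩
    · rw [Units.val_pow_eq_pow_val, Matrix.det_pow, hdetX0, hm'.neg_one_pow]
  · obtain ⟨c, hc⟩ := FiniteField.isSquare_neg_one_iff.mpr hq4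
    have hcT : Nat.card (torus (1 : F)) = (q - 1) * (q - 1) := by
      rw [torus_eq_coords]
      have e : {p : F × F // p.1 * p.1 - 1 * p.2 * p.2 ≠ 0} ≃ {x : F // x ≠ 0} × {x : F // x ≠ 0} :=
        { toFun := fun p => (⟨p.1.1 + p.1.2, fun h => p.2 (by linear_combination (p.1.1 - p.1.2) * h)⟩,
            ⟨p.1.1 - p.1.2, fun h => p.2 (by linear_combination (p.1.1 + p.1.2) * h)⟩)
          invFun := fun x => ⟨((x.1.1 + x.2.1) / 2, (x.1.1 - x.2.1) / 2), by
            intro h
            apply mul_ne_zero x.1.2 x.2.2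
            field_simp at h
            have h4 : (4 : F) ≠ 0 := by
              rw [show (4 : F) = 2 * 2 by norm_num]; exact mul_ne_zero h2 h2
            exact mul_left_cancel₀ h4 (by linear_combination h)⟩
          left_inv := fun p => by
            refine Subtype.ext (Prod.ext ?_ ?_) <;> field_simp <;> ring
          right_inv := fun x => by
            refine Prod.ext (Subtype.ext ?_) (Subtype.ext ?_) <;> field_simp <;> ring }
      rw [Nat.card_congr e, Nat.card_prod, hunits]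
    obtain ⟨k, hk⟩ : ∃ k, q = 4 * k + 1 := ⟨q / 4, by obtain ⟨j, hj⟩ := hF; omega⟩
    let X : GL (Fin 2) F := toGL !![0, 1; 1, 0] (by simp [Matrix.det_fin_two])
    let z : GL (Fin 2) F := toGL !![0, c; c, 0]
      (by simp [Matrix.det_fin_two, ← hc])
    refine goodSylow_of h2 ((4 * k + 1) * (2 * k + 1)) ?_ ?_ z X ?_ ?_ ?_ ?_ ?_ (d := 1)
    · rw [Nat.odd_mul]; exact ⟨⟨2 * k, by ring⟩, ⟨k, rfl⟩⟩
    · rw [card_GL_two, hcT, ← hq, hk]
      have ha : (4 * k + 1) ^ 2 - 1 = 4 * k * (4 * k + 2) := by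
        apply Nat.sub_eq_of_eq_add; ring
      have hb : (4 * k + 1) ^ 2 - (4 * k + 1) = (4 * k + 1) * (4 * k) := by
        apply Nat.sub_eq_of_eq_add; ring
      rw [ha, hb]; simp only [add_tsub_cancel_right]; ring
    · refine ⟨by simp [z, mem_torus], 2, ?_⟩
      refine Units.ext ?_
      ext i j
      fin_cases i <;> fin_cases j <;>
        simp [z, pow_succ, Matrix.mul_apply, ← hc]
    · simp [z]
    · simp [z, ← hc, Matrix.det_fin_two]
    · refine ⟨by simp [X, mem_torus], 1, ?_⟩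
      refine Units.ext ?_
      ext i j
      fin_cases i <;> fin_cases j <;>
        simp [X, pow_succ, Matrix.mul_apply]
    · simp [X, Matrix.det_fin_two]

end Cfsg.Agent.G2Oct
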