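import Cfsg.Prelude.Def_G2
import Mathlib

/-!
The split octonions as pairs of `2 × 2` matrices, and the centraliser of the sign
automorphism in their automorphism group.
-/

set_option autoImplicit false

namespace Cfsg.Agent.G2Oct

open Cfsg.Lie Matrix

variable {F : Type*} [Field F]

/-- The octonion `A + B ℓ`. -/
def pack (A B : Matrix (Fin 2) (Fin 2) F) : Fin 8 → F :=
  ![A 0 0, A 0 1, B 0 0, -B 1 0, A 1 0, B 1 1, B 0 1, A 1 1]

/-- The quaternion part. -/
def hpart (x : Fin 8 → F) : Matrix (Fin 2) (Fin 2) F := !![x 0, x 1; x 4, x 7]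

/-- The coefficient of `ℓ`. -/
def kpart (x : Fin 8 → F) : Matrix (Fin 2) (Fin 2) F := !![x 2, x 6; -x 3, x 5]

theorem pack_parts (x : Fin 8 → F) : pack (hpart x) (kpart x) = x := by
  funext i
  fin_cases i <;> simp [pack, hpart, kpart]

theorem hpart_pack (A B : Matrix (Fin 2) (Fin 2) F) : hpart (pack A B) = A := by
  ext i j
  fin_cases i <;> fin_cases j <;> simp [pack, hpart]

theorem kpart_pack (A B : Matrix (Fin 2) (Fin 2) F) : kpart (pack A B) = B := by
  ext i j
  fin_cases i <;> fin_cases j <;> simp [pack, kpart]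

theorem pack_add (A B C D : Matrix (Fin 2) (Fin 2) F) :
    pack (A + C) (B + D) = pack A B + pack C D := by
  funext i
  fin_cases i <;> simp [pack] <;> ring

theorem pack_smul (c : F) (A B : Matrix (Fin 2) (Fin 2) F) :
    pack (c • A) (c • B) = c • pack A B := by
  funext i
  fin_cases i <;> simp [pack]

theorem pack_inj {A B C D : Matrix (Fin 2) (Fin 2) F} (h : pack A B = pack C D) : A = C ∧ B = D :=
  ⟨by simpa [hpart_pack] using congrArg hpart h, by simpa [kpart_pack] using congrArg kpart h⟩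

/-- The Cayley–Dickson product. -/
theorem pack_mul (A B C D : Matrix (Fin 2) (Fin 2) F) :
    zornMul (pack A B) (pack C D) = pack (A * C + adjugate D * B) (D * A + B * adjugate C) := by
  funext i
  fin_cases i <;>
    simp [zornMul, pack, zA, zB, dot3, cross3, adjugate_fin_two, Matrix.mul_apply,
      Fin.sum_univ_two, Matrix.vecMul, dotProduct] <;> ring

/-- Pairs with equal determinants. -/
def W (F : Type*) [Field F] : Subgroup (GL (Fin 2) F × GL (Fin 2) F) :=
  MonoidHom.eqLocus (GeneralLinearGroup.det.comp (MonoidHom.fst _ _))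
    (GeneralLinearGroup.det.comp (MonoidHom.snd _ _))

theorem mem_W {w : GL (Fin 2) F × GL (Fin 2) F} :
    w ∈ W F ↔ (w.1 : Matrix (Fin 2) (Fin 2) F).det = (w.2 : Matrix (Fin 2) (Fin 2) F).det :=
  ⟨fun h => congrArg Units.val h, fun h => Units.ext h⟩

/-- The action of a pair. -/
def actW (w : GL (Fin 2) F × GL (Fin 2) F) : (Fin 8 → F) →ₗ[F] (Fin 8 → F) where
  toFun x := pack ((w.1 : Matrix (Fin 2) (Fin 2) F) * hpart x * (((w.1)⁻¹ : GL (Fin 2) F) : Matrix (Fin 2) (Fin 2) F))
    ((w.2 : Matrix (Fin 2) (Fin 2) F) * kpart x * (((w.1)⁻¹ : GL (Fin 2) F) : Matrix (Fin 2) (Fin 2) F))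
  map_add' x y := by
    have h1 : hpart (x + y) = hpart x + hpart y := by
      ext i j; fin_cases i <;> fin_cases j <;> simp [hpart]
    have h2 : kpart (x + y) = kpart x + kpart y := by
      ext i j; fin_cases i <;> fin_cases j <;> simp [kpart] <;> ring
    simp only [h1, h2, mul_add, add_mul, pack_add]
  map_smul' c x := by
    have h1 : hpart (c • x) = c • hpart x := by
      ext i j; fin_cases i <;> fin_cases j <;> simp [hpart]
    have h2 : kpart (c • x) = c • kpart x := by
      ext i j; fin_cases i <;> fin_cases j <;> simp [kpart]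
    simp only [h1, h2, mul_smul_comm, smul_mul_assoc, pack_smul, RingHom.id_apply]

theorem actW_pack (w : GL (Fin 2) F × GL (Fin 2) F) (A B : Matrix (Fin 2) (Fin 2) F) :
    actW w (pack A B) = pack ((w.1 : Matrix (Fin 2) (Fin 2) F) * A * (((w.1)⁻¹ : GL (Fin 2) F) : Matrix (Fin 2) (Fin 2) F))
      ((w.2 : Matrix (Fin 2) (Fin 2) F) * B * (((w.1)⁻¹ : GL (Fin 2) F) : Matrix (Fin 2) (Fin 2) F)) := by
  simp [actW, hpart_pack, kpart_pack]

theorem linearMap_ext {f g : (Fin 8 → F) →ₗ[F] (Fin 8 → F)}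
    (h : ∀ A B, f (pack A B) = g (pack A B)) : f = g := by
  refine LinearMap.ext fun x => ?_
  rw [← pack_parts x]
  exact h _ _

theorem actW_one : actW (1 : GL (Fin 2) F × GL (Fin 2) F) = LinearMap.id :=
  linearMap_ext fun A B => by simp [actW_pack]

theorem actW_mul (v w : GL (Fin 2) F × GL (Fin 2) F) : actW (v * w) = (actW v).comp (actW w) :=
  linearMap_ext fun A B => by simp [actW_pack, mul_assoc]

/-- The matrix representation of pairs. -/
def repHom : GL (Fin 2) F × GL (Fin 2) F →* GL (Fin 8) F :=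
  MonoidHom.toHomUnits
    { toFun := fun w => LinearMap.toMatrix' (actW w)
      map_one' := by rw [actW_one, LinearMap.toMatrix'_id]
      map_mul' := fun v w => by rw [actW_mul, LinearMap.toMatrix'_comp] }

theorem repHom_mulVec (w : GL (Fin 2) F × GL (Fin 2) F) (x : Fin 8 → F) :
    (repHom w : Matrix (Fin 8) (Fin 8) F) *ᵥ x = actW w x :=
  LinearMap.toMatrix'_mulVec (actW w) x

theorem adjugate_inv (X : GL (Fin 2) F) :
    adjugate ((X⁻¹ : GL (Fin 2) F) : Matrix (Fin 2) (Fin 2) F) =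
      ((X⁻¹ : GL (Fin 2) F) : Matrix (Fin 2) (Fin 2) F).det • (X : Matrix (Fin 2) (Fin 2) F) := by
  set x := (X : Matrix (Fin 2) (Fin 2) F) with hx
  set x' := ((X⁻¹ : GL (Fin 2) F) : Matrix (Fin 2) (Fin 2) F) with hx'
  calc adjugate x' = adjugate x' * (x' * x) := by simp [hx, hx']
    _ = _ := by rw [← mul_assoc, adjugate_mul, smul_mul_assoc, one_mul]

theorem det_inv_mul_det (X : GL (Fin 2) F) :
    ((X⁻¹ : GL (Fin 2) F) : Matrix (Fin 2) (Fin 2) F).det * (X : Matrix (Fin 2) (Fin 2) F).det = 1 := by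
  rw [← det_mul]; simp

theorem adjugate_conj (X : GL (Fin 2) F) (A : Matrix (Fin 2) (Fin 2) F) :
    adjugate ((X : Matrix (Fin 2) (Fin 2) F) * A * ((X⁻¹ : GL (Fin 2) F) : Matrix (Fin 2) (Fin 2) F)) =
      (X : Matrix (Fin 2) (Fin 2) F) * adjugate A * ((X⁻¹ : GL (Fin 2) F) : Matrix (Fin 2) (Fin 2) F) := by
  have h2 := adjugate_inv X⁻¹
  rw [inv_inv] at h2
  rw [adjugate_mul_distrib, adjugate_mul_distrib, h2, adjugate_inv]
  simp only [smul_mul_assoc, mul_smul_comm, smul_smul, mul_assoc]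
  rw [mul_comm, det_inv_mul_det, one_smul]

theorem adjugate_twist {X Y : GL (Fin 2) F}
    (h : (X : Matrix (Fin 2) (Fin 2) F).det = (Y : Matrix (Fin 2) (Fin 2) F).det) (B D : Matrix (Fin 2) (Fin 2) F) :
    adjugate ((Y : Matrix (Fin 2) (Fin 2) F) * D * ((X⁻¹ : GL (Fin 2) F) : Matrix (Fin 2) (Fin 2) F)) *
        ((Y : Matrix (Fin 2) (Fin 2) F) * B * ((X⁻¹ : GL (Fin 2) F) : Matrix (Fin 2) (Fin 2) F)) =
      (X : Matrix (Fin 2) (Fin 2) F) * (adjugate D * B) * ((X⁻¹ : GL (Fin 2) F) : Matrix (Fin 2) (Fin 2) F) := by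
  rw [adjugate_mul_distrib, adjugate_mul_distrib, adjugate_inv]
  simp only [smul_mul_assoc, mul_assoc]
  rw [← mul_assoc (adjugate (Y : Matrix (Fin 2) (Fin 2) F)), adjugate_mul, ← h, smul_mul_assoc, one_mul]
  simp only [mul_smul_comm, smul_smul]
  rw [det_inv_mul_det, one_smul]

theorem repHom_mem {w : GL (Fin 2) F × GL (Fin 2) F} (hw : w ∈ W F) : repHom w ∈ G2 F := by
  intro x y
  change (repHom w : Matrix (Fin 8) (Fin 8) F) *ᵥ zornMul x y =
    zornMul ((repHom w : Matrix (Fin 8) (Fin 8) F) *ᵥ x) ((repHom w : Matrix (Fin 8) (Fin 8) F) *ᵥ y)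
  simp only [repHom_mulVec]
  rw [← pack_parts x, ← pack_parts y, pack_mul, actW_pack, actW_pack, actW_pack, pack_mul,
    adjugate_conj, adjugate_twist (mem_W.mp hw)]
  congr 1 <;> simp [mul_add, add_mul, mul_assoc]

/-- The pairs acting as automorphisms. -/
def theta : W F →* ↥(G2 F) :=
  (repHom.comp (W F).subtype).codRestrict (G2 F) fun w => repHom_mem w.2

/-- Multiplication by an octonion automorphism, on vectors. -/
abbrev act (g : ↥(G2 F)) (x : Fin 8 → F) : Fin 8 → F :=
  ((g : GL (Fin 8) F) : Matrix (Fin 8) (Fin 8) F) *ᵥ x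

theorem act_mul (g h : ↥(G2 F)) (x : Fin 8 → F) : act (g * h) x = act g (act h x) :=
  (Matrix.mulVec_mulVec x _ _).symm

theorem act_map (g : ↥(G2 F)) (x y : Fin 8 → F) : act g (zornMul x y) = zornMul (act g x) (act g y) :=
  g.2 x y

theorem act_inv (g : ↥(G2 F)) (x : Fin 8 → F) : act g (act g⁻¹ x) = x := by
  rw [← act_mul, mul_inv_cancel]
  simp [act]

theorem ext_act {g h : ↥(G2 F)} (e : ∀ A B, act g (pack A B) = act h (pack A B)) : g = h :=
  Subtype.ext (Units.ext (Matrix.toLin'.injective (LinearMap.ext fun x => by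
    simp only [Matrix.toLin'_apply]
    rw [← pack_parts x]; exact e _ _)))

theorem act_theta (w : W F) (A B : Matrix (Fin 2) (Fin 2) F) :
    act (theta w) (pack A B) =
      pack ((w.1.1 : Matrix (Fin 2) (Fin 2) F) * A * (((w.1.1)⁻¹ : GL (Fin 2) F) : Matrix (Fin 2) (Fin 2) F))
        ((w.1.2 : Matrix (Fin 2) (Fin 2) F) * B * (((w.1.1)⁻¹ : GL (Fin 2) F) : Matrix (Fin 2) (Fin 2) F)) :=
  (repHom_mulVec w.1 _).trans (actW_pack w.1 A B)

theorem negOne_mem : ((1, -1) : GL (Fin 2) F × GL (Fin 2) F) ∈ W F := by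
  rw [mem_W]
  simp [det_fin_two]

/-- The sign automorphism. -/
def sgn : ↥(G2 F) := theta ⟨(1, -1), negOne_mem⟩

theorem act_sgn (A B : Matrix (Fin 2) (Fin 2) F) : act (sgn : ↥(G2 F)) (pack A B) = pack A (-B) := by
  rw [sgn, act_theta]
  simp

/-- The unit octonion. -/
theorem act_one_vec (g : ↥(G2 F)) : act g (pack 1 0) = pack 1 0 := by
  have h : ∀ y, zornMul (act g (pack 1 0)) y = y := fun y => by
    conv_lhs => rw [← act_inv g y, ← act_map]
    conv_rhs => rw [← act_inv g y]
    congr 1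
    rw [← pack_parts (act g⁻¹ y), pack_mul]
    simp
  have := h (pack 1 0)
  rw [← pack_parts (act g (pack 1 0)), pack_mul] at this
  simpa [pack_parts] using this

/-- The centraliser of the sign automorphism. -/
theorem centralizer_le (h2 : (2 : F) ≠ 0) (g : ↥(G2 F)) (hg : g * sgn = sgn * g) :
    g ∈ (theta : W F →* ↥(G2 F)).range := by
  have key : ∀ A B C D, act g (pack A B) = pack C D → act g (pack A (-B)) = pack C (-D) := by
    intro A B C D h
    rw [← act_sgn, ← act_mul, hg, act_mul, h, act_sgn]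
  have hH : ∀ A, ∃ A', act g (pack A 0) = pack A' 0 := fun A => by
    refine ⟨hpart (act g (pack A 0)), ?_⟩
    have h := key A 0 _ _ (pack_parts (act g (pack A 0))).symm
    rw [neg_zero] at h
    obtain ⟨-, hb⟩ := pack_inj ((pack_parts _).trans h)
    have : kpart (act g (pack A 0)) = 0 := by
      have h3 : (2 : F) • kpart (act g (pack A 0)) = 0 := by
        rw [two_smul]; nth_rewrite 1 [hb]; exact neg_add_cancel _
      exact (smul_eq_zero.mp h3).resolve_left h2
    conv_lhs => rw [← pack_parts (act g (pack A 0)), this]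
  choose φ hφ using hH
  have hφm : ∀ A B, φ (A * B) = φ A * φ B := fun A B => by
    have h := act_map g (pack A 0) (pack B 0)
    rw [hφ A, hφ B, pack_mul, pack_mul] at h
    simp only [adjugate_zero, zero_mul, mul_zero, add_zero] at h
    rw [hφ] at h
    exact (pack_inj h).1
  have hφa : ∀ A B, φ (A + B) = φ A + φ B := fun A B => by
    have h : act g (pack (A + B) (0 + 0)) = pack (φ A + φ B) (0 + 0) := by
      rw [pack_add, pack_add, act, Matrix.mulVec_add]
      exact congrArg₂ (· + ·) (hφ A) (hφ B)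
    rw [add_zero, hφ] at h
    exact (pack_inj h).1
  have hφs : ∀ (c : F) A, φ (c • A) = c • φ A := fun c A => by
    have h : act g (pack (c • A) (c • 0)) = pack (c • φ A) (c • 0) := by
      rw [pack_smul, pack_smul, act, Matrix.mulVec_smul]
      exact congrArg (c • ·) (hφ A)
    rw [smul_zero, hφ] at h
    exact (pack_inj h).1
  have hφ1 : φ 1 = 1 := (pack_inj ((hφ 1).symm.trans (act_one_vec g))).1
  let φl : Matrix (Fin 2) (Fin 2) F →ₗ[F] Matrix (Fin 2) (Fin 2) F :=
    { toFun := φ, map_add' := hφa, map_smul' := hφs }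
  have hinj : Function.Injective φl := fun A B (h : φ A = φ B) => by
    have hact : act g (pack A 0) = act g (pack B 0) := by rw [hφ, hφ, h]
    have := congrArg (act g⁻¹) hact
    rw [← act_mul, ← act_mul, inv_mul_cancel] at this
    exact (pack_inj (by simpa [act] using this)).1
  let φa : Matrix (Fin 2) (Fin 2) F ≃ₐ[F] Matrix (Fin 2) (Fin 2) F :=
    AlgEquiv.ofBijective (AlgHom.ofLinearMap φl hφ1 hφm)
      ⟨hinj, LinearMap.injective_iff_surjective.mp hinj⟩
  obtain ⟨T, hT⟩ := AlgEquiv.eq_linearEquivConjAlgEquiv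
    ((Matrix.toLinAlgEquiv'.symm.trans φa).trans Matrix.toLinAlgEquiv')
  let X : GL (Fin 2) F :=
    ⟨LinearMap.toMatrix' T.toLinearMap, LinearMap.toMatrix' T.symm.toLinearMap,
      by rw [← LinearMap.toMatrix'_comp]; simp,
      by rw [← LinearMap.toMatrix'_comp]; simp⟩
  have hX : ∀ A, φ A = (X : Matrix (Fin 2) (Fin 2) F) * A * ((X⁻¹ : GL (Fin 2) F) : Matrix (Fin 2) (Fin 2) F) := by
    intro A
    have h := congrArg LinearMap.toMatrixAlgEquiv' (AlgEquiv.congr_fun hT (Matrix.toLinAlgEquiv' A))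
    simp only [AlgEquiv.trans_apply, AlgEquiv.symm_apply_apply, LinearEquiv.conjAlgEquiv_apply,
      LinearMap.toMatrixAlgEquiv'_toLinAlgEquiv'] at h
    refine h.trans ?_
    change LinearMap.toMatrix' (T.toLinearMap ∘ₗ (Matrix.toLin' A) ∘ₗ T.symm.toLinearMap) = _
    rw [LinearMap.toMatrix'_comp, LinearMap.toMatrix'_comp, LinearMap.toMatrix'_toLin', mul_assoc]
    rfl
  -- the image of `ℓ`
  obtain ⟨C, hC⟩ : ∃ C, act g (pack 0 1) = pack 0 C := by
    refine ⟨kpart (act g (pack 0 1)), ?_⟩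
    have h := key 0 1 _ _ (pack_parts (act g (pack 0 1))).symm
    have hneg : pack (0 : Matrix (Fin 2) (Fin 2) F) (-1) = (-1 : F) • pack 0 1 := by
      rw [← pack_smul]; simp
    rw [hneg, act, Matrix.mulVec_smul, ← act] at h
    have h' : pack ((-1 : F) • hpart (act g (pack 0 1))) ((-1 : F) • kpart (act g (pack 0 1))) =
        pack (hpart (act g (pack 0 1))) (-kpart (act g (pack 0 1))) := by
      rw [pack_smul, pack_parts]; exact h
    obtain ⟨ha, -⟩ := pack_inj h'
    have : hpart (act g (pack 0 1)) = 0 := by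
      have h3 : (2 : F) • hpart (act g (pack 0 1)) = 0 := by
        rw [two_smul]; nth_rewrite 1 [← ha]; simp
      exact (smul_eq_zero.mp h3).resolve_left h2
    conv_lhs => rw [← pack_parts (act g (pack 0 1)), this]
  have hdet : C.det = 1 := by
    have h := act_map g (pack 0 1) (pack 0 1)
    rw [hC, pack_mul, pack_mul] at h
    simp only [adjugate_one, adjugate_zero, mul_zero, zero_mul, zero_add, add_zero, one_mul] at h
    rw [act_one_vec, adjugate_mul] at h
    have := congrFun (congrFun (pack_inj h).1 0) 0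
    simpa using this.symm
  let Cu : GL (Fin 2) F := ⟨C, adjugate C, by rw [mul_adjugate, hdet, one_smul], by rw [adjugate_mul, hdet, one_smul]⟩
  have hw : ((X, Cu * X) : GL (Fin 2) F × GL (Fin 2) F) ∈ W F := by
    rw [mem_W]
    simp [Cu, det_mul, hdet]
  refine ⟨⟨_, hw⟩, ext_act fun A B => ?_⟩
  rw [act_theta]
  have hB : pack (0 : Matrix (Fin 2) (Fin 2) F) B = zornMul (pack B 0) (pack 0 1) := by
    rw [pack_mul]; simp
  have hA : pack A B = pack A 0 + zornMul (pack B 0) (pack 0 1) := by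
    rw [← hB, ← pack_add]; simp
  rw [hA, act, Matrix.mulVec_add, ← act, ← act, act_map, hφ, hφ, hC, pack_mul, ← pack_add]
  simp [hX, Cu, mul_assoc]

end Cfsg.Agent.G2Oct
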