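import Cfsg.Agent.G2Oct.Model
import Cfsg.Agent.G2Oct.GLTwo

/-!
A Sylow 2-subgroup of the automorphism group of the split octonions and its abelianisation.
-/

set_option autoImplicit false

namespace Cfsg.Agent.G2Oct

open Cfsg.Lie Matrix

variable {F : Type*} [Field F]

local notation "M₂" => Matrix (Fin 2) (Fin 2) F

theorem theta_eq_one {w : W F} (h : theta w = 1) : w.1.2 = w.1.1 := by
  have e := act_theta w 0 1
  rw [h] at e
  have e' := (pack_inj ((Matrix.one_mulVec _).symm.trans (by simpa [act] using e))).2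
  refine Units.ext ?_
  calc (w.1.2 : M₂) = (w.1.2 : M₂) * 1 * ((w.1.1⁻¹ : GL (Fin 2) F) : M₂) * (w.1.1 : M₂) := by simp [mul_assoc]
    _ = (w.1.1 : M₂) := by rw [Matrix.coe_units_inv, mul_one, ← e', one_mul]

theorem theta_scalar {w : W F} {a b : F} (ha : (w.1.1 : M₂) = a • 1) (hb : (w.1.2 : M₂) = b • 1)
    (A B : M₂) : act (theta w) (pack A B) = pack A ((b / a) • B) := by
  have ha0 : a ≠ 0 := by
    rintro rfl
    have := (Matrix.GeneralLinearGroup.det w.1.1).ne_zero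
    simp [ha] at this
  have hi : ((w.1.1⁻¹ : GL (Fin 2) F) : M₂) = a⁻¹ • 1 := by
    calc ((w.1.1⁻¹ : GL (Fin 2) F) : M₂) = (a⁻¹ • (w.1.1 : M₂)) * ((w.1.1⁻¹ : GL (Fin 2) F) : M₂) := by
          rw [ha, smul_smul, inv_mul_cancel₀ ha0, one_smul, one_mul]
      _ = a⁻¹ • 1 := by rw [smul_mul_assoc, Units.mul_inv]
  rw [act_theta, ha, hb, hi]
  simp only [smul_mul_assoc, mul_smul_comm, one_mul, mul_one, smul_smul]
  rw [inv_mul_cancel₀ ha0, one_smul, div_eq_inv_mul]

theorem sq_of_trace_zero {A : M₂} (h : A.trace = 0) : A * A = (-A.det) • 1 := by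
  rw [Matrix.trace_fin_two] at h
  have h' : A 1 1 = -A 0 0 := by linear_combination h
  ext i j
  fin_cases i <;> fin_cases j <;> simp [Matrix.mul_apply, Matrix.det_fin_two, h'] <;> ring

theorem theta_sq {w : W F} (h1 : (w.1.1 : M₂).trace = 0) (h2 : (w.1.2 : M₂).trace = 0) :
    theta w * theta w = 1 := by
  rw [← map_mul]
  have hd := mem_W.mp w.2
  refine ext_act fun A B => ?_
  rw [theta_scalar (a := -(w.1.1 : M₂).det) (b := -(w.1.1 : M₂).det)
    (by simpa using sq_of_trace_zero h1) (by simpa [hd] using sq_of_trace_zero h2)]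
  have : (w.1.1 : M₂).det ≠ 0 := (Matrix.GeneralLinearGroup.det w.1.1).ne_zero
  rw [div_self (neg_ne_zero.mpr this), one_smul]
  simp [act]

variable (S : GoodSylow F)

/-- The pairs in the Sylow subgroup. -/
def GoodSylow.pairs : Subgroup (W F) :=
  ((S.D : Subgroup (GL (Fin 2) F)).prod (S.D : Subgroup (GL (Fin 2) F))).comap (W F).subtype

theorem GoodSylow.mem_pairs {w : W F} : w ∈ S.pairs ↔ w.1.1 ∈ S.D ∧ w.1.2 ∈ S.D := Iff.rfl

theorem GoodSylow.isPGroup_pairs : IsPGroup 2 S.pairs := by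
  rintro ⟨w, h1, h2⟩
  obtain ⟨k, hk⟩ := S.D.isPGroup' ⟨_, h1⟩
  obtain ⟨l, hl⟩ := S.D.isPGroup' ⟨_, h2⟩
  refine ⟨k + l, Subtype.ext (Subtype.ext (Prod.ext ?_ ?_))⟩
  · have := congrArg Subtype.val hk
    simp only [SubmonoidClass.coe_pow, Subgroup.coe_one] at this
    simp only [SubmonoidClass.coe_pow, Prod.pow_fst, Subgroup.coe_one, Prod.fst_one]
    rw [pow_add, pow_mul, show w.1.1 ^ 2 ^ k = 1 from this, one_pow]
  · have := congrArg Subtype.val hl
    simp only [SubmonoidClass.coe_pow, Subgroup.coe_one] at this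
    simp only [SubmonoidClass.coe_pow, Prod.pow_snd, Subgroup.coe_one, Prod.snd_one]
    rw [pow_add, mul_comm, pow_mul, show w.1.2 ^ 2 ^ l = 1 from this, one_pow]

/-- They form a Sylow subgroup of the equal determinant pairs. -/
def GoodSylow.pairsSylow : Sylow 2 (W F) where
  toSubgroup := S.pairs
  isPGroup' := S.isPGroup_pairs
  is_maximal' := by
    intro U hU hle
    refine le_antisymm (fun u hu => ?_) hle
    have key : ∀ f : GL (Fin 2) F × GL (Fin 2) F →* GL (Fin 2) F, (∀ A, f (A, A) = A) →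
        f u.1 ∈ S.D := fun f hf => by
      have hle' : (S.D : Subgroup (GL (Fin 2) F)) ≤ U.map (f.comp (W F).subtype) := fun A hA =>
        ⟨⟨(A, A), mem_W.mpr rfl⟩, hle ⟨hA, hA⟩, hf A⟩
      have := S.D.is_maximal' (hU.map _) hle'
      change f u.1 ∈ (S.D : Subgroup (GL (Fin 2) F))
      rw [← this]
      exact ⟨u, hu, rfl⟩
    exact ⟨key (MonoidHom.fst _ _) fun _ => rfl, key (MonoidHom.snd _ _) fun _ => rfl⟩

/-- The image in the automorphism group. -/
def GoodSylow.two : Subgroup ↥(G2 F) := S.pairs.map theta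

theorem GoodSylow.eq_two_of_le (R : Subgroup ↥(G2 F)) (hR : IsPGroup 2 R) (hle : S.two ≤ R)
    (hr : R ≤ (theta : W F →* ↥(G2 F)).range) [Finite F] : R = S.two := by
  haveI : Fact (Nat.Prime 2) := ⟨Nat.prime_two⟩
  let Q := S.pairsSylow.mapSurjective (theta : W F →* ↥(G2 F)).rangeRestrict_surjective
  have h1 : IsPGroup 2 (R.subgroupOf (theta : W F →* ↥(G2 F)).range) :=
    hR.comap_subtype
  have h2 : (Q : Subgroup _) ≤ R.subgroupOf (theta : W F →* ↥(G2 F)).range := by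
    rintro _ ⟨w, hw, rfl⟩
    exact hle ⟨w, hw, rfl⟩
  refine le_antisymm (fun x hx => ?_) hle
  have h3 : (⟨x, hr hx⟩ : (theta : W F →* ↥(G2 F)).range) ∈ (Q : Subgroup _) := by
    rw [← Q.is_maximal' h1 h2]; exact hx
  obtain ⟨w, hw, e⟩ := h3
  exact ⟨w, hw, congrArg Subtype.val e⟩

theorem GoodSylow.exists_sylow [Fintype F] (h2 : (2 : F) ≠ 0) :
    ∃ P : Sylow 2 ↥(G2 F), (P : Subgroup ↥(G2 F)) = S.two := by
  haveI : Fact (Nat.Prime 2) := ⟨Nat.prime_two⟩
  have hp : IsPGroup 2 S.two := S.isPGroup_pairs.map _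
  obtain ⟨P, hP⟩ := hp.exists_le_sylow
  refine ⟨P, S.eq_two_of_le _ P.isPGroup' hP ?_⟩
  have hneg : (-1 : GL (Fin 2) F) ∈ S.D := by
    have h : S.z * S.z = -1 := Units.ext (by
      simpa [S.z_det] using sq_of_trace_zero S.z_trace)
    exact h ▸ mul_mem S.z_mem S.z_mem
  have ht : (sgn : ↥(G2 F)) ∈ S.two := ⟨⟨(1, -1), negOne_mem⟩, ⟨one_mem _, hneg⟩, rfl⟩
  have ht1 : (sgn : ↥(G2 F)) ≠ 1 := by
    intro h
    have e := act_sgn (F := F) 0 1
    rw [h] at e
    have e' := (pack_inj ((Matrix.one_mulVec _).symm.trans (by simpa [act] using e))).2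
    have h00 := congrFun (congrFun e' 0) 0
    simp at h00
    exact h2 (by rw [← one_add_one_eq_two]; nth_rewrite 2 [h00]; simp)
  haveI : Nontrivial (P : Subgroup ↥(G2 F)) :=
    Subgroup.nontrivial_iff_exists_ne_one _ |>.mpr ⟨sgn, hP ht, ht1⟩
  haveI := P.isPGroup'.center_nontrivial
  obtain ⟨⟨c, hc⟩, hc1⟩ := exists_ne (1 : Subgroup.center (P : Subgroup ↥(G2 F)))
  have hcomm : ∀ x ∈ (P : Subgroup ↥(G2 F)), x * (c : ↥(G2 F)) = (c : ↥(G2 F)) * x := fun x hx =>
    congrArg Subtype.val (Subgroup.mem_center_iff.mp hc ⟨x, hx⟩)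
  have hcr : (c : ↥(G2 F)) ∈ (theta : W F →* ↥(G2 F)).range :=
    centralizer_le h2 _ (hcomm _ (hP ht)).symm
  have hsr : S.two ≤ (theta : W F →* ↥(G2 F)).range := Subgroup.map_le_range _ _
  have hR := S.eq_two_of_le (S.two ⊔ Subgroup.zpowers (c : ↥(G2 F)))
    (P.isPGroup'.to_le (sup_le hP (Subgroup.zpowers_le.mpr c.2))) le_sup_left
    (sup_le hsr (Subgroup.zpowers_le.mpr hcr))
  have hcS : (c : ↥(G2 F)) ∈ S.two := hR ▸ Subgroup.mem_sup_right (Subgroup.mem_zpowers _)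
  obtain ⟨w, hw, hwc⟩ := hcS
  have hz1 : ∀ A : GL (Fin 2) F, A ∈ S.D → (A : M₂).det = 1 →
      w.1.1 * A = A * w.1.1 ∧ w.1.2 * A = A * w.1.2 := by
    intro A hA hd
    have key : ∀ v : W F, v ∈ S.pairs → theta (w * v * w⁻¹ * v⁻¹) = 1 := fun v hv => by
      rw [map_mul, map_mul, map_mul, map_inv, map_inv, hwc, ← hcomm _ (hP ⟨v, hv, rfl⟩)]
      group
    have e1 := theta_eq_one (key ⟨(A, 1), mem_W.mpr (by simpa using hd)⟩ ⟨hA, one_mem _⟩)
    have e2 := theta_eq_one (key ⟨(1, A), mem_W.mpr (by simpa using hd.symm)⟩ ⟨one_mem _, hA⟩)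
    exact ⟨commutatorElement_eq_one_iff_mul_comm.mp
        (by simpa [commutatorElement_def, mul_assoc] using e1.symm),
      commutatorElement_eq_one_iff_mul_comm.mp (by simpa [commutatorElement_def, mul_assoc] using e2)⟩
  have hz := hz1 S.z S.z_mem S.z_det
  have hr := hz1 S.r₁ S.r₁_mem S.r₁_det
  obtain ⟨a, ha⟩ := S.comm_scalar _ hz.1 hr.1
  obtain ⟨b, hb⟩ := S.comm_scalar _ hz.2 hr.2
  have hab : a * a = b * b := by
    have := mem_W.mp w.2
    simp [ha, hb, Matrix.det_fin_two] at this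
    linear_combination this
  have ha0 : a ≠ 0 := by
    rintro rfl
    have := (Matrix.GeneralLinearGroup.det w.1.1).ne_zero
    simp [ha] at this
  have hct : (c : ↥(G2 F)) = sgn := by
    rcases mul_self_eq_mul_self_iff.mp hab with e | e
    · exfalso
      refine hc1 (Subtype.ext (Subtype.ext ?_))
      change (c : ↥(G2 F)) = 1
      rw [← hwc]
      refine ext_act fun A B => ?_
      rw [theta_scalar ha hb, ← e, div_self ha0, one_smul]
      simp [act]
    · rw [← hwc]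
      refine ext_act fun A B => ?_
      rw [theta_scalar ha hb, act_sgn, e]
      have hb0 : b ≠ 0 := fun h => ha0 (by rw [e, h, neg_zero])
      rw [div_neg, div_self hb0, neg_one_smul]
  exact fun x hx => centralizer_le h2 x (hct ▸ hcomm x hx)

theorem GoodSylow.sq_mem_commutator (x : S.two) : x ^ 2 ∈ commutator S.two := by
  let π : S.pairs →* Abelianization S.two :=
    Abelianization.of.comp (theta.subgroupMap S.pairs)
  have hinv : ∀ v : S.pairs, (v.1.1.1 : M₂).trace = 0 → (v.1.1.2 : M₂).trace = 0 → π v ^ 2 = 1 := by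
    intro v h1 h2
    rw [← map_pow]
    have : theta.subgroupMap S.pairs (v ^ 2) = 1 := Subtype.ext (by
      simpa [pow_two] using theta_sq h1 h2)
    change Abelianization.of (theta.subgroupMap S.pairs (v ^ 2)) = 1
    rw [this, map_one]
  have hmk : ∀ (A B : GL (Fin 2) F), A ∈ S.D → B ∈ S.D → (A : M₂).det = (B : M₂).det →
      ∃ v : S.pairs, v.1.1 = (A, B) := fun A B hA hB h => ⟨⟨⟨(A, B), mem_W.mpr h⟩, hA, hB⟩, rfl⟩
  have hout : ∀ v : S.pairs, v.1.1.1 ∉ torus S.d → v.1.1.2 ∉ torus S.d → π v ^ 2 = 1 := fun v h1 h2 =>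
    hinv v (S.out_trace _ v.2.1 h1) (S.out_trace _ v.2.2 h2)
  have hin : ∀ v : S.pairs, v.1.1.1 ∈ torus S.d → v.1.1.2 ∈ torus S.d → π v ^ 2 = 1 := by
    intro v h1 h2
    obtain ⟨r, hr⟩ := hmk refl₂ refl₂ S.r_mem S.r_mem rfl
    have a := hout r (by rw [hr]; exact S.r_not_mem) (by rw [hr]; exact S.r_not_mem)
    have b := hout (v * r) (fun h => S.r_not_mem ((mul_mem_cancel_left h1).mp (by simpa [hr] using h)))
      (fun h => S.r_not_mem ((mul_mem_cancel_left h2).mp (by simpa [hr] using h)))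
    rwa [map_mul, mul_pow, a, mul_one] at b
  have hall : ∀ v : S.pairs, π v ^ 2 = 1 := by
    intro v
    by_cases h1 : v.1.1.1 ∈ torus S.d <;> by_cases h2 : v.1.1.2 ∈ torus S.d
    · exact hin v h1 h2
    · obtain ⟨r, hr⟩ := hmk S.z S.r₁ S.z_mem S.r₁_mem (by rw [S.z_det, S.r₁_det])
      have a := hinv r (by rw [hr]; exact S.z_trace)
        (by rw [hr]; exact S.out_trace _ S.r₁_mem S.r₁_not_mem)
      have b := hin (v * r) (by simpa [hr] using mul_mem h1 S.z_torus)
        (by simpa [hr] using S.out_mul _ v.2.2 _ S.r₁_mem h2 S.r₁_not_mem)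
      rwa [map_mul, mul_pow, a, mul_one] at b
    · obtain ⟨r, hr⟩ := hmk S.r₁ S.z S.r₁_mem S.z_mem (by rw [S.z_det, S.r₁_det])
      have a := hinv r (by rw [hr]; exact S.out_trace _ S.r₁_mem S.r₁_not_mem)
        (by rw [hr]; exact S.z_trace)
      have b := hin (v * r) (by simpa [hr] using S.out_mul _ v.2.1 _ S.r₁_mem h1 S.r₁_not_mem)
        (by simpa [hr] using mul_mem h2 S.z_torus)
      rwa [map_mul, mul_pow, a, mul_one] at b
    · exact hout v h1 h2
  obtain ⟨v, rfl⟩ := theta.subgroupMap_surjective S.pairs x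
  rw [← Abelianization.ker_of, MonoidHom.mem_ker]
  exact (map_pow Abelianization.of _ 2).trans (hall v)

theorem sylow_two_sq_mem_commutator [Fintype F] (hF : Odd (Fintype.card F)) (P : Sylow 2 ↥(G2 F))
    (x : (P : Subgroup ↥(G2 F))) : x ^ 2 ∈ commutator (P : Subgroup ↥(G2 F)) := by
  haveI : Fact (Nat.Prime 2) := ⟨Nat.prime_two⟩
  obtain ⟨S⟩ := exists_goodSylow (F := F) hF
  have hchar : ringChar F ≠ 2 := fun h => by
    have := FiniteField.even_card_of_char_two h
    obtain ⟨k, hk⟩ := hF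
    omega
  obtain ⟨Q, hQ⟩ := S.exists_sylow (Ring.two_ne_zero hchar)
  let e : (P : Subgroup ↥(G2 F)) ≃* S.two := (P.equiv Q).trans (MulEquiv.subgroupCongr hQ)
  have h := S.sq_mem_commutator (e x)
  rw [← Abelianization.ker_of, MonoidHom.mem_ker] at h ⊢
  apply (MulEquiv.abelianizationCongr e).injective
  rw [map_one]
  simpa [map_pow] using h

end Cfsg.Agent.G2Oct
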